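import Cfsg.Agent.H907.PSq.Part

/-!
# S4844 PS-6: `ab_part` (helper907)
-/

set_option autoImplicit false

namespace Cfsg.Agent.H907.PSq

open Cfsg Subgroup Cfsg.Agent.Characters.Core Cfsg.Agent.H696.PSq

universe u

/-- PS-6a -/
theorem ab_group {p : ℕ} [hp : Fact p.Prime] {G : Type u} [Group G] [Finite G] {V : Subgroup G}
    (h : Sit p V) (hab : IsMulCommutative V) :
    ∃ A : Subgroup G, Nat.card A = p ∧ A ≤ centralizer (A : Set G) ∧ V ⊓ centralizer (A : Set G) = ⊥ ∧
      (V ⊔ centralizer (A : Set G)).Normal ∧ (Nat.card (centralizer (A : Set G))).factorization p = 3 := by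
  obtain ⟨U, hU, hVU, hUc, -⟩ := h.coreV
  have hV := h.normal
  have habV : ∀ a ∈ V, ∀ b ∈ V, a * b = b * a := fun a ha b hb =>
    congrArg Subtype.val (hab.is_comm.comm (⟨a, ha⟩ : V) ⟨b, hb⟩)
  let A₀ : Sylow p U := default
  set A : Subgroup G := (A₀ : Subgroup U).map U.subtype with hA
  have hVf : (Nat.card V).factorization p = 0 := Nat.factorization_eq_zero_of_not_dvd h.cop
  have hAc : Nat.card A = p := by
    rw [hA, Subgroup.card_map_of_injective U.subtype_injective, A₀.card_eq_multiplicity, hUc,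
      Nat.factorization_mul hp.out.ne_zero Nat.card_pos.ne', Finsupp.add_apply, hVf,
      Nat.Prime.factorization_self hp.out, add_zero, pow_one]
  have hAU : A ≤ U := by
    rw [hA]; exact Subgroup.map_subtype_le _
  have hAp : IsPGroup p A := IsPGroup.of_card (n := 1) (by rw [hAc, pow_one])
  have hcyc : IsCyclic A := isCyclic_of_prime_card hAc
  have hAA : A ≤ centralizer (A : Set G) := by
    intro a ha
    rw [Subgroup.mem_centralizer_iff]
    intro b hb
    have : IsMulCommutative A := IsCyclic.isMulCommutative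
    exact congrArg Subtype.val (this.is_comm.comm (⟨b, hb⟩ : A) ⟨a, ha⟩)
  have hVA : V ⊓ A = ⊥ := by
    apply disjoint_iff.1
    apply Subgroup.disjoint_of_coprime_natCard
    rw [hAc]
    exact (Nat.coprime_comm.1 ((Nat.Prime.coprime_iff_not_dvd hp.out).2 h.cop))
  -- `U = V A`
  have hVAU : V ⊔ A = U := by
    apply Subgroup.eq_of_le_of_card_ge (sup_le hVU hAU)
    have h1 : Nat.card V ∣ Nat.card (V ⊔ A : Subgroup G) := Subgroup.card_dvd_of_le le_sup_left
    have h2 : Nat.card A ∣ Nat.card (V ⊔ A : Subgroup G) := Subgroup.card_dvd_of_le le_sup_right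
    rw [hAc] at h2
    have h3 : Nat.card U ∣ Nat.card (V ⊔ A : Subgroup G) := by
      rw [hUc]
      exact Nat.Coprime.mul_dvd_of_dvd_of_dvd ((Nat.Prime.coprime_iff_not_dvd hp.out).2 h.cop) h2 h1
    exact Nat.le_of_dvd Nat.card_pos h3
  have hfr : normalizer (A : Set G) ⊔ V = ⊤ := by
    have h1 := A₀.normalizer_sup_eq_top
    rw [eq_top_iff, ← h1]
    refine sup_le le_sup_left ?_
    rw [← hVAU]
    exact sup_le le_sup_right (le_sup_of_le_left Subgroup.le_normalizer)
  have hCn : ∀ g ∈ normalizer (A : Set G), ∀ c ∈ centralizer (A : Set G), g * c * g⁻¹ ∈ centralizer (A : Set G) := by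
    intro g hg c hc
    rw [Subgroup.mem_centralizer_iff] at hc ⊢
    intro a ha
    have h1 : g⁻¹ * a * g ∈ A := by
      have h2 := (Subgroup.mem_normalizer_iff.1 ((normalizer (A : Set G)).inv_mem hg) a).1 ha
      rwa [inv_inv] at h2
    have h2 := hc _ h1
    calc a * (g * c * g⁻¹) = g * ((g⁻¹ * a * g) * c) * g⁻¹ := by group
      _ = g * (c * (g⁻¹ * a * g)) * g⁻¹ := by rw [h2]
      _ = g * c * g⁻¹ * a := by group
  have hnorm : ∀ D : Subgroup G, (∀ g ∈ normalizer (A : Set G), ∀ d ∈ D, g * d * g⁻¹ ∈ D) →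
      (∀ v ∈ V, ∀ d ∈ D, v * d * v⁻¹ ∈ D) → D.Normal := by
    intro D h1 h2
    refine ⟨fun d hd g => ?_⟩
    have hg : g ∈ normalizer (A : Set G) ⊔ V := by rw [hfr]; trivial
    obtain ⟨x, hx, v, hv, rfl⟩ := Subgroup.mem_sup_of_normal_right.1 hg
    have e : x * v * d * (x * v)⁻¹ = x * (v * d * v⁻¹) * x⁻¹ := by group
    rw [e]
    exact h1 x hx _ (h2 v hv d hd)
  -- `C_V(A) = 1`
  have hDn : (V ⊓ centralizer (A : Set G)).Normal := by
    refine hnorm _ (fun g hg d hd => ⟨hV.conj_mem d hd.1 g, hCn g hg d hd.2⟩) (fun v hv d hd => ?_)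
    have e : v * d * v⁻¹ = d := by rw [habV v hv d hd.1, mul_inv_cancel_right]
    rw [e]; exact hd
  have hD : V ⊓ centralizer (A : Set G) = ⊥ := by
    rcases h.min _ hDn inf_le_left with h1 | h1
    · exact h1
    exfalso
    have hVC : V ≤ centralizer (A : Set G) := by
      rw [← h1]; exact inf_le_right
    have hAn : A.Normal := by
      have h2 : normalizer (A : Set G) = ⊤ := by
        rw [eq_top_iff, ← hfr]
        refine sup_le le_rfl (hVC.trans ?_)
        exact Subgroup.centralizer_le_normalizer (A : Set G)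
      exact Subgroup.normalizer_eq_top_iff.1 h2
    have h3 := Lib.Cores.le_pCore hAn hAp
    rw [h.core, le_bot_iff] at h3
    rw [h3, Subgroup.card_bot] at hAc
    exact hp.out.one_lt.ne hAc
  have hGn : (V ⊔ centralizer (A : Set G)).Normal := by
    refine hnorm _ (fun g hg d hd => ?_) (fun v hv d hd => ?_)
    · obtain ⟨v, hv, c, hc, rfl⟩ := Subgroup.mem_sup_of_normal_left.1 hd
      have e : g * (v * c) * g⁻¹ = (g * v * g⁻¹) * (g * c * g⁻¹) := by group
      rw [e]
      exact Subgroup.mul_mem_sup (hV.conj_mem v hv g) (hCn g hg c hc)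
    · have hv' : v ∈ V ⊔ centralizer (A : Set G) := (le_sup_left : V ≤ _) hv
      exact Subgroup.mul_mem _ (Subgroup.mul_mem _ hv' hd) (Subgroup.inv_mem _ hv')
  refine ⟨A, hAc, hAA, hD, hGn, ?_⟩
  -- the order
  have hidx : ¬ p ∣ (V ⊔ centralizer (A : Set G)).index := by
    have h1 : (V ⊔ centralizer (A : Set G)).index ∣ (centralizer (A : Set G)).relIndex (normalizer (A : Set G)) := by
      have h2 : (V ⊔ centralizer (A : Set G)).relIndex (normalizer (A : Set G)) =
          (V ⊔ centralizer (A : Set G)).index := by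
        have h3 := Subgroup.relIndex_sup_left (H := normalizer (A : Set G)) (K := V ⊔ centralizer (A : Set G))
        have h4 : V ⊔ centralizer (A : Set G) ⊔ normalizer (A : Set G) = ⊤ := by
          rw [eq_top_iff, ← hfr]
          exact sup_le le_sup_right (le_sup_of_le_left le_sup_left)
        rw [h4, Subgroup.relIndex_top_right] at h3
        exact h3.symm
      rw [← h2]
      exact Subgroup.relIndex_dvd_of_le_left _ le_sup_right
    have h5 : (centralizer (A : Set G)).relIndex (normalizer (A : Set G)) ∣ p - 1 := by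
      have h6 : (centralizer (A : Set G)).relIndex (normalizer (A : Set G)) = Nat.card A.normalizerMonoidHom.range := by
        rw [← Subgroup.index_ker, Subgroup.normalizerMonoidHom_ker]
        rfl
      rw [h6]
      have h7 := Subgroup.card_subgroup_dvd_card A.normalizerMonoidHom.range
      rwa [IsCyclic.card_mulAut, hAc, Nat.totient_prime hp.out] at h7
    intro hd
    have h6 := Nat.le_of_dvd (by have := hp.out.two_le; omega) (hd.trans (h1.trans h5))
    have := hp.out.two_le
    omega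
  have h1 : Nat.card (V ⊔ centralizer (A : Set G) : Subgroup G) = Nat.card V * Nat.card (centralizer (A : Set G)) := by
    have h2 := Subgroup.relIndex_mul_relIndex ⊥ V (V ⊔ centralizer (A : Set G)) bot_le le_sup_left
    rw [Subgroup.relIndex_bot_left, Subgroup.relIndex_bot_left, Subgroup.relIndex_sup_left,
      ← Subgroup.inf_relIndex_right, hD, Subgroup.relIndex_bot_left] at h2
    exact h2.symm
  have h2 := (V ⊔ centralizer (A : Set G)).card_mul_index
  have h3 := h.three
  rw [← h2, h1, Nat.factorization_mul (mul_ne_zero Nat.card_pos.ne' Nat.card_pos.ne') Subgroup.index_ne_zero_of_finite,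
    Nat.factorization_mul Nat.card_pos.ne' Nat.card_pos.ne', Finsupp.add_apply, Finsupp.add_apply, hVf,
    Nat.factorization_eq_zero_of_not_dvd hidx] at h3
  omega

/-- **PS-6** -/
theorem ab_part {p : ℕ} [hp : Fact p.Prime] (hIM : FactIM.{u} p) {G : Type u} [Group G] [Finite G] {V : Subgroup G}
    (h : Sit p V) (hab : IsMulCommutative V) :
    ∃ (C : Subgroup G) (A : Subgroup C) (W : Type u) (_ : CommGroup W) (_ : Finite W)
      (_ : MulDistribMulAction C W), PartHyp p W A ∧ Hyp p C := by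
  obtain ⟨A, hAc, hAA, hD, hGn, h3⟩ := ab_group h hab
  have hV := h.normal
  have habV : ∀ a ∈ V, ∀ b ∈ V, a * b = b * a := fun a ha b hb =>
    congrArg Subtype.val (hab.is_comm.comm (⟨a, ha⟩ : V) ⟨b, hb⟩)
  let C : Subgroup G := centralizer (A : Set G)
  let K : Subgroup G := V ⊔ C
  let V' : Subgroup K := V.subgroupOf K
  let f : C →* K := Subgroup.inclusion le_sup_right
  have hVn : V'.Normal := hV.subgroupOf K
  have hab' : ∀ a ∈ V', ∀ b ∈ V', a * b = b * a := fun a ha b hb => Subtype.ext (habV a ha b hb)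
  have hf : Function.Injective f := Subgroup.inclusion_injective _
  have hinf : V' ⊓ f.range = ⊥ := by
    rw [Subgroup.eq_bot_iff_forall]
    rintro _ ⟨hx, c, rfl⟩
    have h1 : (c : G) ∈ V ⊓ centralizer (A : Set G) := ⟨hx, c.2⟩
    rw [hD, Subgroup.mem_bot] at h1
    exact Subtype.ext h1
  have hsup : V' ⊔ f.range = ⊤ := by
    rw [eq_top_iff]
    rintro ⟨x, hx⟩ -
    obtain ⟨v, hv, c, hc, rfl⟩ := Subgroup.mem_sup_of_normal_left.1 hx
    have e : (⟨v * c, hx⟩ : K) = ⟨v, (le_sup_left : V ≤ K) hv⟩ * f ⟨c, hc⟩ := rfl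
    rw [e]
    exact Subgroup.mul_mem_sup hv ⟨⟨c, hc⟩, rfl⟩
  have hyp : Hyp p K := fun h1 => h.hyp (h1.of_normal K)
  have hcore : pCore p K = ⊥ := by
    have h1 := Lib.Cores.map_subtype_pCore p hGn
    rw [h.core, inf_bot_eq, Subgroup.map_eq_bot_iff_of_injective _ (Subgroup.subtype_injective _)] at h1
    exact h1
  have hcV : Nat.card V' = Nat.card V := Nat.card_congr (Subgroup.subgroupOfEquivOfLe le_sup_left).toEquiv
  have hA' : A.subgroupOf C ≤ center C := by
    intro a ha
    rw [Subgroup.mem_center_iff]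
    intro c
    exact Subtype.ext (Subgroup.mem_centralizer_iff.1 c.2 a ha).symm
  have hAc' : Nat.card (A.subgroupOf C) = p := by
    rw [← hAc]
    exact Nat.card_congr (Subgroup.subgroupOfEquivOfLe hAA).toEquiv
  have hfix : ∀ v ∈ V', (∀ a ∈ A.subgroupOf C, f a * v = v * f a) → v = 1 := by
    intro v hv h1
    have h2 : (v : G) ∈ V ⊓ centralizer (A : Set G) := by
      refine ⟨hv, Subgroup.mem_centralizer_iff.2 fun a ha => ?_⟩
      exact congrArg Subtype.val (h1 ⟨a, hAA ha⟩ ha)
    rw [hD, Subgroup.mem_bot] at h2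
    exact Subtype.ext h2
  have hV1 : V' ≠ ⊥ := by
    intro h1
    apply h.ne
    rw [← Subgroup.card_eq_one, ← hcV, h1, Subgroup.card_bot]
  have hcomp := part hIM hab' hf hinf hsup hA' hAc' h3 (by rw [hcV]; exact h.cop) hV1 hfix hyp hcore
  have habV' : ∀ a b : V', a * b = b * a := by
    rintro ⟨a, ha⟩ ⟨b, hb⟩
    exact Subtype.ext (hab' a ha b hb)
  have hW : Finite (V' →* ℂˣ) := Nat.finite_of_card_ne_zero (by
    rw [card_dual habV']; exact Nat.card_pos.ne')
  refine ⟨C, A.subgroupOf C, V' →* ℂˣ, inferInstance, hW, act V' f, hcomp, fun h1 => hyp ?_⟩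
  obtain ⟨π, hπf, -, -⟩ := exists_proj V' f hf hinf hsup
  exact h1.of_surjective π fun c => ⟨f c, hπf c⟩

end Cfsg.Agent.H907.PSq
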