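import Cfsg.Agent.H669.TwoDegSol
import Cfsg.Agent.H669.Basic

/-!
# S4844 PS-6b: irreducible characters of `V ⋊ C`, `V` abelian (helper907)
-/

set_option autoImplicit false

namespace Cfsg.Agent.H907.PSq

open Cfsg Subgroup Cfsg.Agent.Characters.Core

universe u v

/-- projection onto a complement -/
theorem exists_proj {K : Type u} {C : Type v} [Group K] [Group C] (V : Subgroup K) [V.Normal] (f : C →* K)
    (hf : Function.Injective f) (hinf : V ⊓ f.range = ⊥) (hsup : V ⊔ f.range = ⊤) :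
    ∃ π : K →* C, (∀ c, π (f c) = c) ∧ (∀ v ∈ V, π v = 1) ∧ ∀ g, g * (f (π g))⁻¹ ∈ V := by
  have hq : Function.Bijective ((QuotientGroup.mk' V).comp f) := by
    constructor
    · rw [injective_iff_map_eq_one]
      intro c hc
      have h1 : f c ∈ V := (QuotientGroup.eq_one_iff _).1 hc
      have h2 : f c ∈ V ⊓ f.range := ⟨h1, c, rfl⟩
      rw [hinf, Subgroup.mem_bot] at h2
      exact hf (by rw [h2, map_one])
    · intro x
      obtain ⟨g, rfl⟩ := QuotientGroup.mk'_surjective V x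
      have h1 : g ∈ V ⊔ f.range := by rw [hsup]; trivial
      obtain ⟨v, hv, _, ⟨c, rfl⟩, rfl⟩ := Subgroup.mem_sup_of_normal_left.1 h1
      refine ⟨c, ?_⟩
      rw [map_mul]
      have h2 : QuotientGroup.mk' V v = 1 := (QuotientGroup.eq_one_iff v).2 hv
      rw [h2, one_mul]
      rfl
  let e : C ≃* K ⧸ V := MulEquiv.ofBijective _ hq
  have he : ∀ c, e c = QuotientGroup.mk' V (f c) := fun c => rfl
  refine ⟨e.symm.toMonoidHom.comp (QuotientGroup.mk' V), fun c => ?_, fun v hv => ?_, fun g => ?_⟩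
  · change e.symm (QuotientGroup.mk' V (f c)) = c
    rw [← he, MulEquiv.symm_apply_apply]
  · change e.symm (QuotientGroup.mk' V v) = 1
    have h2 : QuotientGroup.mk' V v = 1 := (QuotientGroup.eq_one_iff v).2 hv
    rw [h2, map_one]
  · have h1 : QuotientGroup.mk' V (f (e.symm (QuotientGroup.mk' V g))) = QuotientGroup.mk' V g := by
      rw [← he, MulEquiv.apply_symm_apply]
    have h2 : QuotientGroup.mk' V (g * (f (e.symm (QuotientGroup.mk' V g)))⁻¹) = 1 := by
      rw [map_mul, map_inv, h1, mul_inv_cancel]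
    exact (QuotientGroup.eq_one_iff _).1 h2

/-- Irreducible characters of the semidirect product over a linear character of the abelian kernel. -/
theorem exists_irr {K : Type u} {C : Type v} [Group K] [Finite K] [Group C] (V : Subgroup K) [hV : V.Normal] (f : C →* K)
    (hab : ∀ a ∈ V, ∀ b ∈ V, a * b = b * a)
    (hf : Function.Injective f) (hinf : V ⊓ f.range = ⊥) (hsup : V ⊔ f.range = ⊤) (l : V →* ℂˣ) (S : Subgroup C)
    (hS : ∀ c, c ∈ S ↔ ∀ n : V, l ⟨f c * n * (f c)⁻¹, hV.conj_mem (n : K) n.2 (f c)⟩ = l n) {β : S → ℂ}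
    (hβ : IsIrrCharacter S β) : ∃ X : K → ℂ, IsIrrCharacter K X ∧ charDegree X = S.index * charDegree β := by
  obtain ⟨π, hπf, hπV, hπ⟩ := exists_proj V f hf hinf hsup
  have hsurj : Function.Surjective π := fun c => ⟨f c, hπf c⟩
  have hab' : ∀ (v : K) (hv : v ∈ V) (n : V), l ⟨v * n * v⁻¹, hV.conj_mem (n : K) n.2 v⟩ = l n := by
    intro v hv n
    congr 1
    apply Subtype.ext
    change v * n * v⁻¹ = n
    rw [hab v hv n n.2, mul_inv_cancel_right]
  have key : ∀ g : K, (∀ n : V, l ⟨g * n * g⁻¹, hV.conj_mem (n : K) n.2 g⟩ = l n) ↔ π g ∈ S := by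
    intro g
    rw [hS]
    have h1 : ∀ n : V, l ⟨g * n * g⁻¹, hV.conj_mem (n : K) n.2 g⟩ =
        l ⟨f (π g) * n * (f (π g))⁻¹, hV.conj_mem (n : K) n.2 (f (π g))⟩ := by
      intro n
      rw [← hab' _ (hπ g) ⟨f (π g) * n * (f (π g))⁻¹, hV.conj_mem (n : K) n.2 (f (π g))⟩]
      congr 1
      apply Subtype.ext
      change g * n * g⁻¹ = g * (f (π g))⁻¹ * (f (π g) * n * (f (π g))⁻¹) * (g * (f (π g))⁻¹)⁻¹
      group
    simp only [h1]
  set T : Subgroup K := S.comap π with hT
  have hVT : V ≤ T := fun v hv => by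
    rw [hT, Subgroup.mem_comap, hπV v hv]
    exact S.one_mem
  -- the extension of `l`
  have hmem : ∀ t : T, (t : K) * (f (π t))⁻¹ ∈ V := fun t => hπ t
  let L : T →* ℂˣ :=
    { toFun := fun t => l ⟨(t : K) * (f (π t))⁻¹, hmem t⟩
      map_one' := by
        rw [← map_one l]
        congr 1
        apply Subtype.ext
        change (1 : K) * (f (π 1))⁻¹ = 1
        rw [map_one, map_one, inv_one, one_mul]
      map_mul' := fun s t => by
        have h1 := (key (f (π s))).2 (by rw [hπf]; exact s.2) ⟨(t : K) * (f (π t))⁻¹, hmem t⟩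
        rw [← h1, ← map_mul]
        congr 1
        apply Subtype.ext
        change (s * t : K) * (f (π (s * t)))⁻¹ =
          (s : K) * (f (π s))⁻¹ * (f (π s) * ((t : K) * (f (π t))⁻¹) * (f (π s))⁻¹)
        rw [map_mul, map_mul]
        group }
  have hL : ∀ n : V, L ⟨n, hVT n.2⟩ = l n := by
    intro n
    change l _ = l n
    congr 1
    apply Subtype.ext
    change (n : K) * (f (π n))⁻¹ = n
    rw [hπV n n.2, map_one, inv_one, mul_one]
  let ρ : T →* S := π.subgroupComap S
  have hρ : Function.Surjective ρ := by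
    rintro ⟨c, hc⟩
    exact ⟨⟨f c, by rw [hT, Subgroup.mem_comap, hπf]; exact hc⟩, Subtype.ext (hπf c)⟩
  have h1 : IsIrrCharacter T (β ∘ ρ) := isIrr_comp ρ hρ hβ
  have h2 : IsIrrCharacter T (fun t => (L t : ℂ) * (β ∘ ρ) t) := H669.Basic.isIrr_hom_mul L h1
  have hρV : ∀ n : V, ρ ⟨n, hVT n.2⟩ = 1 := fun n => Subtype.ext (hπV n n.2)
  obtain ⟨X, hX, hXd⟩ := H669.TwoDeg.exists_clifford_up V l T
    (fun g => (key g).symm) hVT h2 (fun n => by
      simp only [Function.comp_apply, hL, hρV, map_one, Units.val_one, one_mul]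
      rw [mul_comm])
  refine ⟨X, hX, ?_⟩
  rw [hXd]
  congr 1
  · rw [hT]
    exact Subgroup.index_comap_of_surjective S hsurj
  · unfold charDegree
    simp

end Cfsg.Agent.H907.PSq
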