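import Cfsg.Agent.H696.PSq.Defs
import Cfsg.Agent.H907.PSq.Cliff

/-!
# S4844 PS-6b: the partition of the dual module (helper907)
-/

set_option autoImplicit false

namespace Cfsg.Agent.H907.PSq

open Cfsg Subgroup Cfsg.Agent.Characters.Core Cfsg.Agent.H696.PSq

universe u

section act

variable {K C : Type u} [Group K] [Group C] (V : Subgroup K) [hV : V.Normal] (f : C →* K)

/-- the action of `C` on the dual of `V` -/
@[reducible] def act : MulDistribMulAction C (V →* ℂˣ) where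
  smul c l := l.comp ((MulAut.conjNormal (f c)⁻¹ : MulAut V) : V ≃* V).toMonoidHom
  one_smul l := by
    ext n
    change (l ((MulAut.conjNormal (f 1)⁻¹ : MulAut V) n) : ℂ) = l n
    rw [map_one, inv_one, map_one]
    rfl
  mul_smul c d l := by
    ext n
    change (l ((MulAut.conjNormal (f (c * d))⁻¹ : MulAut V) n) : ℂ) =
      l ((MulAut.conjNormal (f d)⁻¹ : MulAut V) ((MulAut.conjNormal (f c)⁻¹ : MulAut V) n))
    rw [map_mul, _root_.mul_inv_rev, map_mul]
    rfl
  smul_mul c l m := rfl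
  smul_one c := rfl

theorem act_apply (c : C) (l : V →* ℂˣ) (n : V) :
    letI := act V f
    (c • l) n = l ⟨(f c)⁻¹ * n * f c, by
      have := hV.conj_mem (n : K) n.2 (f c)⁻¹
      rwa [inv_inv] at this⟩ := by
  change l ((MulAut.conjNormal (f c)⁻¹ : MulAut V) n) = _
  congr 1
  apply Subtype.ext
  rw [MulAut.conjNormal_apply]
  simp

theorem act_iff (c : C) (l : V →* ℂˣ) :
    letI := act V f
    c • l = l ↔ ∀ n : V, l ⟨f c * n * (f c)⁻¹, hV.conj_mem (n : K) n.2 (f c)⟩ = l n := by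
  letI := act V f
  constructor
  · intro h n
    have h1 := congrArg (fun m : V →* ℂˣ => m ⟨f c * n * (f c)⁻¹, hV.conj_mem (n : K) n.2 (f c)⟩) h
    rw [act_apply] at h1
    rw [← h1]
    congr 1
    apply Subtype.ext
    change (f c)⁻¹ * (f c * n * (f c)⁻¹) * f c = n
    group
  · intro h
    ext n
    rw [act_apply, ← h ⟨(f c)⁻¹ * n * f c, _⟩]
    congr 2
    apply Subtype.ext
    change f c * ((f c)⁻¹ * n * f c) * (f c)⁻¹ = n
    group

end act

/-- the dual separates points -/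
theorem exists_ne {V : Type u} [Group V] [Finite V] (hab : ∀ a b : V, a * b = b * a) {v : V} (hv : v ≠ 1) :
    ∃ l : V →* ℂˣ, l v ≠ 1 := by
  let _ : CommGroup V := { (inferInstance : Group V) with mul_comm := hab }
  have : NeZero (Monoid.exponent V) := ⟨Monoid.exponent_ne_zero_of_finite⟩
  exact CommGroup.exists_apply_ne_one_of_hasEnoughRootsOfUnity V ℂ hv

theorem card_dual {V : Type u} [Group V] [Finite V] (hab : ∀ a b : V, a * b = b * a) :
    Nat.card (V →* ℂˣ) = Nat.card V := by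
  rw [Characters.Linear.card_hom_eq_index_commutator]
  have h1 : commutator V = ⊥ := by
    rw [commutator_def, Subgroup.commutator_eq_bot_iff_le_centralizer]
    intro x _
    rw [Subgroup.mem_centralizer_iff]
    intro y _
    exact hab y x
  rw [h1, Subgroup.index_bot]

section part

variable {p : ℕ} [hp : Fact p.Prime] {K C : Type u} [Group K] [Finite K] [Group C] {V : Subgroup K} [hV : V.Normal]
  {f : C →* K}

/-- an element without fixed points on `V` has none on the dual -/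
theorem dual_fix (hab : ∀ a ∈ V, ∀ b ∈ V, a * b = b * a) {a : C} (ha : ∀ v ∈ V, f a * v = v * f a → v = 1)
    {l : V →* ℂˣ} (h : letI := act V f; a • l = l) : l = 1 := by
  have h1 := (act_iff V f a l).1 h
  let φ : V → V := fun n => ⟨f a * n * (f a)⁻¹, hV.conj_mem (n : K) n.2 (f a)⟩ * n⁻¹
  have hφ : Function.Injective φ := by
    intro m n hmn
    have h2 : f a * m * (f a)⁻¹ * (m : K)⁻¹ = f a * n * (f a)⁻¹ * (n : K)⁻¹ := congrArg Subtype.val hmn
    have h3 : (n : K)⁻¹ * m = 1 := by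
      apply ha _ (V.mul_mem (V.inv_mem n.2) m.2)
      have h4 : f a * m * (f a)⁻¹ = f a * n * (f a)⁻¹ * (n : K)⁻¹ * m := by rw [← h2]; group
      have h5 : f a * m = f a * n * (f a)⁻¹ * ((n : K)⁻¹ * m) * f a := by
        calc f a * m = (f a * m * (f a)⁻¹) * f a := by group
          _ = _ := by rw [h4]; group
      have h6 : (f a * (n : K) * (f a)⁻¹) * ((n : K)⁻¹ * m) = ((n : K)⁻¹ * m) * (f a * n * (f a)⁻¹) :=
        hab _ (hV.conj_mem (n : K) n.2 (f a)) _ (V.mul_mem (V.inv_mem n.2) m.2)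
      rw [h6] at h5
      calc f a * ((n : K)⁻¹ * m) = (f a * n * (f a)⁻¹)⁻¹ * (f a * m) := by group
        _ = (f a * n * (f a)⁻¹)⁻¹ * ((n : K)⁻¹ * m * (f a * n * (f a)⁻¹) * f a) := by rw [← h5]
        _ = (f a * n * (f a)⁻¹)⁻¹ * ((n : K)⁻¹ * m * (f a * n * (f a)⁻¹)) * f a := by group
        _ = (n : K)⁻¹ * m * f a := by
          rw [← h6]; group
    apply Subtype.ext
    exact (eq_of_inv_mul_eq_one h3).symm
  have hs : Function.Surjective φ := Finite.surjective_of_injective hφ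
  refine MonoidHom.ext fun n => ?_
  obtain ⟨m, rfl⟩ := hs n
  change l (⟨f a * m * (f a)⁻¹, hV.conj_mem (m : K) m.2 (f a)⟩ * m⁻¹) = 1
  rw [map_mul, map_inv, h1, mul_inv_cancel]

theorem factorization_index (S : Subgroup C) [Finite C] {a : ℕ} (h1 : (Nat.card C).factorization p = a) :
    (Nat.card S).factorization p + S.index.factorization p = a := by
  rw [← h1, ← S.card_mul_index, Nat.factorization_mul (Nat.card_pos.ne') (Subgroup.index_ne_zero_of_finite)]
  rfl

/-- the stabiliser of `l` -/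
def Sl (V : Subgroup K) [hV : V.Normal] (f : C →* K) (l : V →* ℂˣ) : Subgroup C :=
  letI := act V f
  MulAction.stabilizer C l

omit [Finite K] in
theorem mem_Sl {l : V →* ℂˣ} {c : C} : c ∈ Sl V f l ↔
    ∀ n : V, l ⟨f c * n * (f c)⁻¹, hV.conj_mem (n : K) n.2 (f c)⟩ = l n := by
  rw [← act_iff V f]
  rfl

theorem part (hIM : FactIM.{u} p) (hab : ∀ a ∈ V, ∀ b ∈ V, a * b = b * a)
    (hf : Function.Injective f) (hinf : V ⊓ f.range = ⊥) (hsup : V ⊔ f.range = ⊤) {A : Subgroup C}
    (hA : A ≤ center C) (hAc : Nat.card A = p) (h3 : (Nat.card C).factorization p = 3)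
    (hcop : ¬ p ∣ Nat.card V) (hV1 : V ≠ ⊥) (hfix : ∀ v ∈ V, (∀ a ∈ A, f a * v = v * f a) → v = 1)
    (hyp : Hyp p K) (hcore : pCore p K = ⊥) :
    letI := act V f
    PartHyp p (V →* ℂˣ) A := by
  letI := act V f
  have hC : Finite C := Finite.of_injective f hf
  have habV : ∀ a b : V, a * b = b * a := fun a b => Subtype.ext (hab a a.2 b b.2)
  have hA1 : ∀ a ∈ A, a ≠ 1 → ∀ l : V →* ℂˣ, a • l = l → l = 1 := by
    intro a ha ha1 l hl
    refine dual_fix hab (a := a) (fun v hv hav => hfix v hv fun b hb => ?_) hl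
    have h1 : Subgroup.zpowers (⟨a, ha⟩ : A) = ⊤ :=
      zpowers_eq_top_of_prime_card hAc (fun h => ha1 (congrArg Subtype.val h))
    obtain ⟨k, hk⟩ : (⟨b, hb⟩ : A) ∈ Subgroup.zpowers (⟨a, ha⟩ : A) := by rw [h1]; trivial
    have h2 : a ^ k = b := congrArg Subtype.val hk
    rw [← h2, map_zpow]
    exact (Commute.zpow_left (show Commute (f a) v from hav) k).eq
  have hAS : ∀ l : V →* ℂˣ, l ≠ 1 → ∀ x ∈ A, x ∈ Sl V f l → x = 1 := by
    intro l hl x hx hxS
    by_contra hx1
    exact hl (hA1 x hx hx1 l hxS)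
  have hAne : ∃ a ∈ A, a ≠ 1 := by
    have : Nontrivial A := by
      rw [← Finite.one_lt_card_iff_nontrivial, hAc]
      exact hp.out.one_lt
    obtain ⟨a, ha⟩ := _root_.exists_ne (1 : A)
    exact ⟨a, a.2, fun h => ha (Subtype.ext h)⟩
  -- the stabilisers
  have key : ∀ l : V →* ℂˣ, l ≠ 1 → (Nat.card (Sl V f l)).factorization p = 2 ∧ ¬ H33.IM p (Sl V f l) := by
    intro l hl
    have hdeg : ∀ {β : Sl V f l → ℂ}, IsIrrCharacter (Sl V f l) β →
        ¬ p ^ 2 ∣ (Sl V f l).index * charDegree β := by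
      intro β hβ hd
      obtain ⟨X, hX, hXd⟩ := exists_irr V f hab hf hinf hsup l (Sl V f l) (fun c => mem_Sl) hβ
      exact hyp (H33.IM.intro hX (by rw [hXd]; exact hd))
    have h1 : ¬ p ^ 2 ∣ (Sl V f l).index := fun h => hdeg (isIrr_one (G := Sl V f l)) (h.mul_right _)
    have h2 : p ∣ (Sl V f l).index := by
      have hPA : IsPGroup p A := IsPGroup.of_card (n := 1) (by rw [hAc, pow_one])
      have h4 := hPA.card_modEq_card_fixedPoints (C ⧸ Sl V f l)
      have h5 : IsEmpty (MulAction.fixedPoints A (C ⧸ Sl V f l)) := by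
        constructor
        rintro ⟨x, hx⟩
        obtain ⟨g, rfl⟩ := QuotientGroup.mk_surjective x
        obtain ⟨a, ha, ha1⟩ := hAne
        have h6 : (QuotientGroup.mk (a * g) : C ⧸ Sl V f l) = QuotientGroup.mk g := hx ⟨a, ha⟩
        rw [QuotientGroup.eq] at h6
        have h7 : (a * g)⁻¹ * g = a⁻¹ := by
          have h8 : g * a = a * g := (Subgroup.mem_center_iff.1 (hA ha) g)
          rw [← h8, _root_.mul_inv_rev, mul_assoc, inv_mul_cancel, mul_one]
        rw [h7] at h6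
        exact ha1 (inv_eq_one.1 (hAS l hl _ (A.inv_mem ha) h6))
      rw [@Nat.card_of_isEmpty (MulAction.fixedPoints A (C ⧸ Sl V f l)) h5] at h4
      exact (Nat.modEq_zero_iff_dvd.1 h4)
    have h4 : (Sl V f l).index.factorization p = 1 := by
      have h5 : (Sl V f l).index ≠ 0 := Subgroup.index_ne_zero_of_finite
      have h6 : 1 ≤ (Sl V f l).index.factorization p := (hp.out.dvd_iff_one_le_factorization h5).1 h2
      have h7 : ¬ 2 ≤ (Sl V f l).index.factorization p := fun h =>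
        h1 ((hp.out.pow_dvd_iff_le_factorization h5).2 h)
      omega
    have h5 := factorization_index (p := p) (Sl V f l) h3
    refine ⟨by omega, fun ⟨β, hβ⟩ => hdeg β.2 ?_⟩
    rw [pow_two]
    exact Nat.mul_dvd_mul h2 hβ
  have hstab : ∀ l : V →* ℂˣ, l ≠ 1 → ∃ R : Subgroup C, Nat.card R = p ^ 2 ∧ IsMulCommutative R ∧ R ⊓ A = ⊥ ∧
      (∀ x ∈ R, x • l = l) ∧ ∀ x : C, (∃ k, orderOf x = p ^ k) → x • l = l → x ∈ R := by
    intro l hl
    obtain ⟨h1, h2⟩ := key l hl
    obtain ⟨hn, hc⟩ := hIM (Sl V f l) h2 default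
    set P : Sylow p (Sl V f l) := default
    refine ⟨(P : Subgroup (Sl V f l)).map (Sl V f l).subtype, ?_, ?_, ?_, ?_, ?_⟩
    · rw [Subgroup.card_map_of_injective (Subgroup.subtype_injective _), P.card_eq_multiplicity, h1]
    · exact inferInstance
    · rw [Subgroup.eq_bot_iff_forall]
      rintro _ ⟨⟨x, hx, rfl⟩, hxA⟩
      exact hAS l hl _ hxA x.2
    · rintro _ ⟨x, hx, rfl⟩
      exact x.2
    · intro x hxo hxl
      refine ⟨⟨x, hxl⟩, ?_, rfl⟩
      have h4 : IsPGroup p (Subgroup.zpowers (⟨x, hxl⟩ : Sl V f l)) := by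
        obtain ⟨k, hk⟩ := hxo
        refine IsPGroup.of_card (n := k) ?_
        rw [Nat.card_zpowers, ← hk, ← Subgroup.orderOf_coe]
      obtain ⟨Q, hQ⟩ := h4.exists_le_sylow
      have h5 : Q = P := by
        letI := Sylow.unique_of_normal P hn
        exact Subsingleton.elim _ _
      rw [← h5]
      exact hQ (Subgroup.mem_zpowers _)
  have hW : Finite (V →* ℂˣ) := Nat.finite_of_card_ne_zero (by rw [card_dual habV]; exact Nat.card_pos.ne')
  have hnt : Nontrivial (V →* ℂˣ) := by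
    rw [← Finite.one_lt_card_iff_nontrivial, card_dual habV, Finite.one_lt_card_iff_nontrivial]
    exact (Subgroup.nontrivial_iff_ne_bot V).2 hV1
  refine ⟨hA, hAc, h3, by rw [card_dual habV]; exact hcop, hnt, ?_, hstab⟩
  intro x hx
  by_contra hcon
  push Not at hcon
  obtain ⟨l, hl⟩ := _root_.exists_ne (1 : V →* ℂˣ)
  obtain ⟨R, hR1, -, -, hR4, hR5⟩ := hstab l hl
  -- elements acting trivially on the dual centralise `V`
  have hcent : ∀ c : C, (∀ m : V →* ℂˣ, c • m = m) ↔ ∀ n : V, f c * n * (f c)⁻¹ = n := by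
    intro c
    constructor
    · intro h n
      by_contra hne
      have h6 : (⟨f c * n * (f c)⁻¹, hV.conj_mem (n : K) n.2 (f c)⟩ * n⁻¹ : V) ≠ 1 := by
        intro h7
        exact hne (congrArg Subtype.val (mul_inv_eq_one.1 h7))
      obtain ⟨m, hm⟩ := exists_ne habV h6
      apply hm
      rw [map_mul, map_inv, (act_iff V f c m).1 (h m) n, mul_inv_cancel]
    · intro h m
      rw [act_iff]
      intro n
      congr 1
      exact Subtype.ext (h n)
  let O : Subgroup C :=
    { carrier := {c | c ∈ R ∧ ∀ m : V →* ℂˣ, c • m = m}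
      mul_mem' := fun {a b} ha hb => ⟨R.mul_mem ha.1 hb.1, fun m => by rw [mul_smul, hb.2, ha.2]⟩
      one_mem' := ⟨R.one_mem, fun m => one_smul _ _⟩
      inv_mem' := fun {a} ha => ⟨R.inv_mem ha.1, fun m => by rw [inv_smul_eq_iff, ha.2]⟩ }
  have hOp : IsPGroup p O := by
    have h6 : IsPGroup p R := IsPGroup.of_card hR1
    exact h6.to_le fun c hc => hc.1
  have hOn : ∀ g c : C, c ∈ O → g * c * g⁻¹ ∈ O := by
    intro g c hc
    have h6 : ∀ m : V →* ℂˣ, (g * c * g⁻¹) • m = m := fun m => by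
      rw [mul_smul, mul_smul, hc.2, smul_inv_smul]
    refine ⟨hR5 _ ?_ (h6 l), h6⟩
    obtain ⟨k, hk⟩ := (IsPGroup.iff_orderOf.1 hOp) ⟨c, hc⟩
    refine ⟨k, ?_⟩
    rw [← hk, ← Subgroup.orderOf_coe]
    exact orderOf_injective (MulAut.conj g).toMonoidHom (MulAut.conj g).injective c
  have hN : (O.map f).Normal := by
    constructor
    rintro _ ⟨c, hc, rfl⟩ g
    have h1 : g ∈ V ⊔ f.range := by rw [hsup]; trivial
    obtain ⟨v, hv, _, ⟨d, rfl⟩, rfl⟩ := Subgroup.mem_sup_of_normal_left.1 h1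
    have h6 := hOn d c hc
    have h7 := (hcent _).1 h6.2 ⟨v, hv⟩
    refine ⟨d * c * d⁻¹, h6, ?_⟩
    have h8 : f (d * c * d⁻¹) * v = v * f (d * c * d⁻¹) := by
      calc f (d * c * d⁻¹) * v = (f (d * c * d⁻¹) * v * (f (d * c * d⁻¹))⁻¹) * f (d * c * d⁻¹) := by group
        _ = _ := by rw [h7]
    calc f (d * c * d⁻¹) = v * f (d * c * d⁻¹) * v⁻¹ := by rw [← h8, mul_inv_cancel_right]
      _ = v * f d * f c * (v * f d)⁻¹ := by rw [map_mul, map_mul, map_inv]; group
  have hle : O.map f ≤ pCore p K := Lib.Cores.le_pCore hN (hOp.map f)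
  rw [hcore, le_bot_iff, Subgroup.map_eq_bot_iff_of_injective _ hf] at hle
  have hxO : x ∈ O := ⟨hR5 x ⟨1, by rw [hx, pow_one]⟩ (hcon l), hcon⟩
  rw [hle, Subgroup.mem_bot] at hxO
  rw [hxO, orderOf_one] at hx
  exact hp.out.one_lt.ne hx

end part

end Cfsg.Agent.H907.PSq
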